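import Mathlib

/-! Cyclic groups of composite prime-power order are B-groups (Burnside, Schur). -/

set_option autoImplicit false
set_option linter.unusedSectionVars false

namespace Cfsg.Agent.H4

open Finset

theorem sum_pow_char_of_commute {R ι : Type*} [Semiring R] {p : ℕ} [hp : Fact p.Prime] [CharP R p]
    (s : Finset ι) (f : ι → R) (h : ∀ i j, Commute (f i) (f j)) :
    (∑ i ∈ s, f i) ^ p = ∑ i ∈ s, f i ^ p := by
  classical
  induction s using Finset.induction_on with
  | empty => simp [hp.out.ne_zero]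
  | insert a s ha ih =>
    rw [sum_insert ha, sum_insert ha, add_pow_char_of_commute p
      (Commute.sum_right _ _ _ fun i _ => h a i), ih]

variable {A : Type*} [AddCommGroup A] (G : Type*) [Group G] [MulAction G A]

/-- The difference relation defined by `S` is invariant under `G`. -/
def DiffInv (S : Set A) : Prop := ∀ (γ : G) (x y : A), y - x ∈ S → γ • y - γ • x ∈ S

variable {G}

theorem DiffInv.iff {S : Set A} (h : DiffInv G S) (γ : G) (x y : A) :
    γ • y - γ • x ∈ S ↔ y - x ∈ S :=
  ⟨fun h' => by simpa using h γ⁻¹ _ _ h', h γ x y⟩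

theorem DiffInv.closure {S : Set A} (h : DiffInv G S) :
    DiffInv G (AddSubgroup.closure S : Set A) := by
  intro γ
  have key : ∀ z ∈ AddSubgroup.closure S, ∀ x, γ • (x + z) - γ • x ∈ AddSubgroup.closure S := by
    intro z hz
    induction hz using AddSubgroup.closure_induction with
    | mem z hz => exact fun x => AddSubgroup.subset_closure (h γ _ _ (by simpa using hz))
    | zero => intro x; simp
    | add z w _ _ h1 h2 =>
      intro x
      have := AddSubgroup.add_mem _ (h2 (x + z)) (h1 x)
      rwa [sub_add_sub_cancel, add_assoc] at this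
    | neg z _ h1 =>
      intro x
      have := AddSubgroup.neg_mem _ (h1 (x + -z))
      simpa using this
  intro x y hxy
  simpa using key _ hxy x

/-- The translations preserving a set. -/
def radical (T : Set A) : AddSubgroup A where
  carrier := {z | ∀ t, t + z ∈ T ↔ t ∈ T}
  zero_mem' := by simp
  add_mem' := fun {a b} ha hb t => by rw [← add_assoc, hb, ha]
  neg_mem' := fun {a} ha t => by rw [← ha]; simp

theorem DiffInv.radical {T : Set A} (h : DiffInv G T) : DiffInv G (radical T : Set A) := by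
  intro γ x y hxy t
  obtain ⟨w, hw⟩ : ∃ w, γ • w = γ • x - t := ⟨γ⁻¹ • (γ • x - t), by simp⟩
  have e1 : t = γ • x - γ • w := by rw [hw]; abel
  have e2 : t + (γ • y - γ • x) = γ • y - γ • w := by rw [hw]; abel
  rw [e2, e1, h.iff, h.iff, ← hxy (x - w)]
  congr! 1; abel

/-- The basic set of `a`. -/
def basic (G : Type*) [Group G] [MulAction G A] (a : A) : Set A :=
  {z | ∃ γ : G, γ • a - γ • (0 : A) = z}

theorem mem_basic_self (a : A) : a ∈ basic G a := ⟨1, by simp⟩

theorem DiffInv.basic_subset {S : Set A} (h : DiffInv G S) {a : A} (ha : a ∈ S) :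
    basic G a ⊆ S := by
  rintro _ ⟨γ, rfl⟩
  exact h γ 0 a (by simpa using ha)

theorem ne_zero_of_mem_basic {a z : A} (ha : a ≠ 0) (hz : z ∈ basic G a) : z ≠ 0 := by
  obtain ⟨γ, rfl⟩ := hz
  rw [sub_ne_zero]
  exact fun e => ha (smul_left_cancel γ e)

theorem diffInv_basic (htr : ∀ a : A, ∃ τ : G, ∀ x : A, τ • x = x + a) (a : A) :
    DiffInv G (basic G a) := by
  rintro δ x y ⟨γ, h⟩
  obtain ⟨τ, hτ⟩ := htr (x - γ • (0 : A))
  refine ⟨δ * τ * γ, ?_⟩
  simp only [mul_smul, hτ]
  congr 2
  · rw [← add_sub_assoc, add_sub_right_comm, h]; abel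
  · abel

theorem basic_symm (htr : ∀ a : A, ∃ τ : G, ∀ x : A, τ • x = x + a) {a b : A}
    (h : b ∈ basic G a) : a ∈ basic G b := by
  obtain ⟨γ, h⟩ := h
  have := ((diffInv_basic htr b).iff γ 0 a).1 (by rw [h]; exact mem_basic_self b)
  simpa using this

variable [Fintype A] [DecidableEq A]

/-- The translation matrix. -/
def trMat (R : Type*) [Semiring R] (t : A) : Matrix A A R := fun x y => if y - x = t then 1 else 0

theorem trMat_mul (R : Type*) [Semiring R] (s t : A) :
    trMat R s * trMat R t = trMat R (s + t) := by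
  ext x y
  rw [Matrix.mul_apply, Finset.sum_eq_single (x + s)]
  · simp only [trMat, add_sub_cancel_left, if_true, one_mul]
    congr 1
    apply propext
    constructor <;> intro h
    · rw [← h]; abel
    · rw [← sub_sub, h]; abel
  · intro b _ hb
    rw [trMat, if_neg, zero_mul]
    intro e; exact hb (by rw [← e]; abel)
  · simp

theorem trMat_pow (R : Type*) [Semiring R] (t : A) (n : ℕ) : trMat R t ^ n = trMat R (n • t) := by
  induction n with
  | zero =>
    ext x y
    simp [trMat, Matrix.one_apply, sub_eq_zero, eq_comm]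
  | succ n ih => rw [pow_succ, ih, trMat_mul, succ_nsmul]

theorem DiffInv.pow_char {T : Finset A} (h : DiffInv G (T : Set A)) {p : ℕ} [hp : Fact p.Prime] :
    DiffInv G {z | ¬ p ∣ #{t ∈ T | p • t = z}} := by
  intro γ x y hxy
  let M : Matrix A A (ZMod p) := ∑ t ∈ T, trMat (ZMod p) t
  have hM : ∀ x y, M x y = if y - x ∈ T then 1 else 0 := by
    intro x y
    simp [M, Matrix.sum_apply, trMat]
  have hinv : ∀ (n : ℕ) (x y : A), (M ^ n) (γ • x) (γ • y) = (M ^ n) x y := by
    intro n
    induction n with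
    | zero => intro x y; simp [Matrix.one_apply]
    | succ n ih =>
      intro x y
      rw [pow_succ, Matrix.mul_apply, Matrix.mul_apply,
        ← Equiv.sum_comp (MulAction.toPerm γ : Equiv.Perm A)]
      refine Finset.sum_congr rfl fun w _ => ?_
      rw [MulAction.toPerm_apply, ih, hM, hM]
      congr 2
      exact propext (h.iff γ w y)
  have hpow : ∀ x y, (M ^ p) x y = (#{t ∈ T | p • t = y - x} : ZMod p) := by
    intro x y
    rw [sum_pow_char_of_commute _ _ fun i j => by
      rw [Commute, SemiconjBy, trMat_mul, trMat_mul, add_comm]]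
    simp [Matrix.sum_apply, trMat_pow, trMat, eq_comm]
  have := hinv p x y
  rw [hpow, hpow] at this
  change ¬ p ∣ _ at hxy ⊢
  rwa [← ZMod.natCast_eq_zero_iff, this, ZMod.natCast_eq_zero_iff]

theorem DiffInv.count {T : Finset A} (h : DiffInv G (T : Set A)) (k : ℕ) :
    DiffInv G {z | k ≤ #{w ∈ T | w + z ∈ T}} := by
  intro γ x y hxy
  change k ≤ _ at hxy ⊢
  refine hxy.trans (Finset.card_le_card_of_injOn (fun w => γ • x - γ • (x - w)) ?_ ?_)
  · intro w hw
    simp only [coe_filter, Set.mem_ofPred_eq] at hw ⊢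
    constructor
    · exact h γ _ _ (by simpa using hw.1)
    · have := h γ (x - w) y (by
        have e : y - (x - w) = w + (y - x) := by abel
        rw [e]; exact hw.2)
      have e : γ • x - γ • (x - w) + (γ • y - γ • x) = γ • y - γ • (x - w) := by abel
      rw [e]; exact this
  · intro w _ w' _ e
    simpa using e

theorem sum_count (T : Finset A) : ∑ z, #{w ∈ T | w + z ∈ T} = #T * #T := by
  simp only [Finset.card_filter]
  rw [Finset.sum_comm]
  rw [← smul_eq_mul, ← Finset.sum_const]
  refine Finset.sum_congr rfl fun w _ => ?_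
  rw [← Equiv.sum_comp (Equiv.addLeft (-w))]
  simp

theorem mem_basic_of_primitive (htr : ∀ a : A, ∃ τ : G, ∀ x : A, τ • x = x + a) {p : ℕ}
    (hp : p.Prime) (hE : #{z : A | p • z = 0} = p) (hA : ∃ a : A, p • a ≠ 0)
    (hprim : ∀ D : AddSubgroup A, DiffInv G (D : Set A) → D = ⊥ ∨ D = ⊤) {a b : A} (ha : a ≠ 0)
    (hb : b ≠ 0) : b ∈ basic G a := by
  classical
  have := Fact.mk hp
  let B : A → Finset A := fun a => {z | z ∈ basic G a}
  have hB : ∀ a z, z ∈ B a ↔ z ∈ basic G a := by simp [B]
  have hBi : ∀ a, DiffInv G (B a : Set A) := fun a => by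
    have : (B a : Set A) = basic G a := by ext; simp [B]
    rw [this]; exact diffInv_basic htr a
  have hsurj : (nsmulAddMonoidHom p : A →+ A).range ≠ ⊤ := by
    intro h
    rw [AddMonoidHom.range_eq_top, ← Finite.injective_iff_surjective] at h
    have : ({z : A | p • z = 0} : Finset A) ⊆ {0} := by
      intro z hz
      simp only [mem_filter, mem_univ, true_and] at hz
      exact mem_singleton.2 (h (by simpa using hz))
    have := card_le_card this
    rw [hE, card_singleton] at this
    exact hp.one_lt.not_ge this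
  have hadd : ∀ a, ∀ t ∈ B a, p • t ≠ 0 → ∀ e, p • e = 0 → t + e ∈ B a := by
    intro a t ht hpt e he
    have h1 := (hprim _ (hBi a).pow_char.closure).resolve_right fun h => hsurj (by
      rw [eq_top_iff, ← h, AddSubgroup.closure_le]
      intro z hz
      have : #{t ∈ B a | p • t = z} ≠ 0 := fun h0 => hz (h0 ▸ dvd_zero p)
      obtain ⟨t, ht⟩ := card_ne_zero.1 this
      exact ⟨t, (mem_filter.1 ht).2⟩)
    have h2 : p ∣ #{t' ∈ B a | p • t' = p • t} := by
      by_contra h2
      exact hpt (AddSubgroup.mem_bot.1 (h1 ▸ AddSubgroup.subset_closure h2))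
    have h3 : ({t' ∈ B a | p • t' = p • t} : Finset A) ⊆
        ({z : A | p • z = 0} : Finset A).map (Equiv.addLeft t).toEmbedding := by
      intro t' ht'
      rw [mem_map]
      exact ⟨t' - t, by simp [smul_sub, (mem_filter.1 ht').2], by simp⟩
    have h4 := eq_of_subset_of_card_le h3 (by
      rw [card_map, hE]
      exact Nat.le_of_dvd (card_pos.2 ⟨t, mem_filter.2 ⟨ht, rfl⟩⟩) h2)
    have : t + e ∈ ({z : A | p • z = 0} : Finset A).map (Equiv.addLeft t).toEmbedding :=
      mem_map.2 ⟨e, by simpa using he, rfl⟩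
    rw [← h4] at this
    exact (mem_filter.1 this).1
  have hmeet : ∀ a ≠ 0, ∃ e ∈ B a, p • e = 0 := by
    intro a ha
    by_contra hcon
    push Not at hcon
    obtain ⟨e, he, he0⟩ : ∃ e ∈ ({z : A | p • z = 0} : Finset A), e ≠ 0 :=
      exists_mem_ne (by rw [hE]; exact hp.one_lt) 0
    have he' : p • e = 0 := by simpa using he
    have h1 : e ∈ radical (B a : Set A) := by
      intro t
      refine ⟨fun ht => ?_, fun ht => hadd a t ht (hcon t ht) e he'⟩
      simpa using hadd a _ ht (hcon _ ht) (-e) (by simp [he'])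
    have h2 := (hprim _ (hBi a).radical).resolve_left fun h => he0 (AddSubgroup.mem_bot.1 (h ▸ h1))
    have h3 : -a ∈ radical (B a : Set A) := h2 ▸ AddSubgroup.mem_top _
    have h4 := (h3 a).2 ((hB a a).2 (mem_basic_self a))
    exact ne_zero_of_mem_basic ha ((hB a _).1 h4) (by simp)
  have hout : ∀ a ≠ 0, ∃ t ∈ B a, p • t ≠ 0 := by
    intro a ha
    by_contra hcon
    push Not at hcon
    rcases hprim _ (hBi a).closure with h | h
    · exact ha (AddSubgroup.mem_bot.1 (h ▸ AddSubgroup.subset_closure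
        ((hB a a).2 (mem_basic_self a))))
    · obtain ⟨c, hc⟩ := hA
      have : AddSubgroup.closure (B a : Set A) ≤ (nsmulAddMonoidHom p : A →+ A).ker :=
        (AddSubgroup.closure_le _).2 hcon
      exact hc (this (h ▸ AddSubgroup.mem_top c))
  have key : ∀ a ≠ 0, Fintype.card A - 1 < 2 * #(B a) := by
    intro a ha
    by_contra hcon
    push Not at hcon
    set k := #{t ∈ B a | p • t ≠ 0} with hk
    have h1 : ∀ z ≠ 0, k ≤ #{w ∈ B a | w + z ∈ B a} := by
      intro z hz
      obtain ⟨e, he, he'⟩ := hmeet z hz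
      refine ((hBi a).count k).basic_subset (a := e) ?_ (basic_symm htr ((hB z e).1 he))
      refine card_le_card fun t ht => ?_
      rw [mem_filter] at ht ⊢
      exact ⟨ht.1, hadd a t ht.1 ht.2 e he'⟩
    have h2 := sum_count (B a)
    rw [← Finset.add_sum_erase _ _ (mem_univ (0 : A))] at h2
    have h3 : #{w ∈ B a | w + 0 ∈ B a} = #(B a) := by
      congr 1; ext; simp
    have h4 := card_nsmul_le_sum (univ.erase (0 : A)) _ k fun z hz => h1 z (ne_of_mem_erase hz)
    rw [card_erase_of_mem (mem_univ _), card_univ, smul_eq_mul] at h4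
    have h5 : p ≤ k := by
      obtain ⟨t, ht, hpt⟩ := hout a ha
      rw [← hE]
      refine card_le_card_of_injOn (fun e => t + e) ?_ (fun e _ e' _ h => add_left_cancel h)
      intro e he
      simp only [coe_filter, mem_univ, true_and, Set.mem_ofPred_eq] at he ⊢
      exact ⟨hadd a t ht hpt e he, by simpa [smul_add, he] using hpt⟩
    have h6 : #(B a) ≤ k + p := by
      rw [← card_filter_add_card_filter_not (fun t => p • t ≠ 0)]
      refine Nat.add_le_add_left (le_of_le_of_eq (card_le_card ?_) hE) _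
      intro t ht
      simpa using (mem_filter.1 ht).2
    have h7 : 0 < #(B a) := card_pos.2 ⟨a, (hB a a).2 (mem_basic_self a)⟩
    have h8 : 2 * #(B a) * k ≤ (Fintype.card A - 1) * k := Nat.mul_le_mul_right _ hcon
    nlinarith
  by_contra hcon
  have hd : Disjoint (B a) (B b) := by
    rw [Finset.disjoint_left]
    intro z h1 h2
    exact hcon ((diffInv_basic htr a).basic_subset ((hB a z).1 h1) (basic_symm htr ((hB b z).1 h2)))
  have h1 : B a ∪ B b ⊆ univ.erase 0 := by
    intro z hz
    rw [mem_erase]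
    rcases mem_union.1 hz with h | h
    · exact ⟨ne_zero_of_mem_basic ha ((hB _ _).1 h), mem_univ _⟩
    · exact ⟨ne_zero_of_mem_basic hb ((hB _ _).1 h), mem_univ _⟩
  have h2 := card_le_card h1
  rw [card_union_of_disjoint hd, card_erase_of_mem (mem_univ _), card_univ] at h2
  have := key a ha
  have := key b hb
  omega

theorem two_trans_of_primitive (htr : ∀ a : A, ∃ τ : G, ∀ x : A, τ • x = x + a) {p : ℕ}
    (hp : p.Prime) (hE : #{z : A | p • z = 0} = p) (hA : ∃ a : A, p • a ≠ 0)
    (hprim : ∀ D : AddSubgroup A, DiffInv G (D : Set A) → D = ⊥ ∨ D = ⊤) :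
    MulAction.IsMultiplyPretransitive G A 2 := by
  rw [MulAction.is_two_pretransitive_iff]
  intro a b c d hab hcd
  obtain ⟨γ, hγ⟩ := mem_basic_of_primitive htr hp hE hA hprim (sub_ne_zero.2 hab.symm)
    (sub_ne_zero.2 hcd.symm)
  obtain ⟨τ, hτ⟩ := htr (-a)
  obtain ⟨σ, hσ⟩ := htr (c - γ • (0 : A))
  refine ⟨σ * γ * τ, ?_, ?_⟩
  · simp [mul_smul, hτ, hσ]
  · simp only [mul_smul, hτ, hσ]
    rw [← sub_eq_add_neg, ← add_sub_assoc, add_sub_right_comm, hγ]; abel

end Cfsg.Agent.H4
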