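import Mathlib

/-! Levi's lemma on 2-Engel groups, and cosets of elements of order three. -/

set_option autoImplicit false

namespace Cfsg.Agent.H4

open Subgroup

theorem levi_ring {R : Type*} [Ring R] {Y Z Y' Z' : R} (hY : Y * Y' = 1) (hZ : Z * Z' = 1)
    (h1 : (Y - 1) * (Y - 1) = 0) (h2 : (Z - 1) * (Z - 1) = 0)
    (h3 : (Y * Z - 1) * (Y * Z - 1) = 0) :
    Y * Z * Y' * Z' - 1 = (Y - 1) * (Z - 1) + (Y - 1) * (Z - 1) := by
  obtain ⟨u, rfl⟩ : ∃ u, Y = 1 + u := ⟨Y - 1, by abel⟩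
  obtain ⟨v, rfl⟩ : ∃ v, Z = 1 + v := ⟨Z - 1, by abel⟩
  simp only [add_sub_cancel_left] at h1 h2 ⊢
  have e1 : Y' = 1 - u := by
    have : (1 - u) * (1 + u) = 1 := by
      calc (1 - u) * (1 + u) = 1 - u * u := by noncomm_ring
        _ = 1 := by rw [h1, sub_zero]
    calc Y' = ((1 - u) * (1 + u)) * Y' := by rw [this, one_mul]
      _ = 1 - u := by rw [mul_assoc, hY, mul_one]
  have e2 : Z' = 1 - v := by
    have : (1 - v) * (1 + v) = 1 := by
      calc (1 - v) * (1 + v) = 1 - v * v := by noncomm_ring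
        _ = 1 := by rw [h2, sub_zero]
    calc Z' = ((1 - v) * (1 + v)) * Z' := by rw [this, one_mul]
      _ = 1 - v := by rw [mul_assoc, hZ, mul_one]
  have e3 : v * u = -(u * v) := by
    have a1 : (1 + u) * (1 + v) * (Z' * Y') = 1 := by
      rw [mul_assoc, ← mul_assoc (1 + v), hZ, one_mul, hY]
    have a2 : (1 - ((1 + u) * (1 + v) - 1)) * ((1 + u) * (1 + v)) = 1 := by
      calc _ = 1 - ((1 + u) * (1 + v) - 1) * ((1 + u) * (1 + v) - 1) := by noncomm_ring
        _ = 1 := by rw [h3, sub_zero]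
    have a3 : Z' * Y' = 1 - ((1 + u) * (1 + v) - 1) := by
      calc Z' * Y' = ((1 - ((1 + u) * (1 + v) - 1)) * ((1 + u) * (1 + v))) * (Z' * Y') := by
            rw [a2, one_mul]
        _ = _ := by rw [mul_assoc, a1, mul_one]
    rw [e1, e2] at a3
    calc v * u = (1 - v) * (1 - u) - (1 - u - v) := by noncomm_ring
      _ = _ := by rw [a3]; noncomm_ring
  rw [e1, e2]
  calc (1 + u) * (1 + v) * (1 - u) * (1 - v) - 1
      = (1 + u) * (1 - u + v - v * u) * (1 - v) - 1 := by noncomm_ring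
    _ = (1 + u) * (1 - u + v + u * v) * (1 - v) - 1 := by rw [e3, sub_neg_eq_add]
    _ = (u * v + u * v) + (-(u * u) + (u * u) * v) * (1 - v) - (1 + u + u) * (v * v) := by
      noncomm_ring
    _ = _ := by rw [h1, h2]; simp

variable {G : Type*} [Group G]

open scoped commutatorElement in
theorem levi_sq (h : ∀ a b : G, Commute a (b * a * b⁻¹)) (x y z : G) :
    ⁅⁅y, z⁆, x⁆ = ⁅y, ⁅z, x⁆⁆ ^ 2 := by
  let A : Subgroup G := normalClosure {x}
  have hA : IsMulCommutative A := by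
    apply Subgroup.isMulCommutative_closure
    intro a ha b hb
    obtain ⟨a', ha', hc⟩ := Group.mem_conjugatesOfSet_iff.1 ha
    obtain ⟨b', hb', hd⟩ := Group.mem_conjugatesOfSet_iff.1 hb
    rw [Set.mem_singleton_iff] at ha' hb'
    subst a' b'
    obtain ⟨c, rfl⟩ := isConj_iff.1 (hc.symm.trans hd)
    exact h a c
  let : CommGroup A := { (inferInstance : Group A) with mul_comm := fun a b => mul_comm' a b }
  let ρ : G → AddMonoid.End (Additive A) := fun g =>
    MonoidHom.toAdditive (MulAut.conjNormal g : MulAut A).toMonoidHom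
  have ρapp : ∀ (g : G) (a : Additive A), ((ρ g a).toMul : G) = g * (a.toMul : G) * g⁻¹ :=
    fun g a => rfl
  have ρmul : ∀ g k : G, ρ (g * k) = ρ g * ρ k := by
    intro g k
    ext a
    rw [AddMonoid.End.coe_mul, Function.comp_apply, ρapp, ρapp, ρapp]
    group
  have ρone : ρ 1 = 1 := by
    ext a
    rw [ρapp]; simp
  have sub_app : ∀ (g : G) (a : Additive A), (((ρ g - 1) a).toMul : G) = ⁅g, (a.toMul : G)⁆ := by
    intro g a
    have : (ρ g - 1) a = ρ g a - a := rfl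
    rw [this, toMul_sub, div_eq_mul_inv, Subgroup.coe_mul, ρapp, commutatorElement_def]
    rfl
  have sq : ∀ g : G, (ρ g - 1) * (ρ g - 1) = 0 := by
    intro g
    ext a
    rw [AddMonoid.End.coe_mul, Function.comp_apply, sub_app, sub_app]
    change _ = (1 : G)
    rw [commutatorElement_eq_one_iff_commute, commutatorElement_def]
    have := (h g (a.toMul : G)).inv_right
    have e : g * (a.toMul : G) * g⁻¹ * (a.toMul : G)⁻¹ =
      g * ((a.toMul : G) * g * (a.toMul : G)⁻¹)⁻¹ := by group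
    rw [e]
    exact (Commute.refl g).mul_right this
  have key := levi_ring (Y := ρ y) (Z := ρ z) (Y' := ρ y⁻¹) (Z' := ρ z⁻¹)
    (by rw [← ρmul, mul_inv_cancel, ρone]) (by rw [← ρmul, mul_inv_cancel, ρone]) (sq y) (sq z)
    (by rw [← ρmul]; exact sq _)
  rw [← ρmul, ← ρmul, ← ρmul, ← commutatorElement_def] at key
  let X : Additive A := Additive.ofMul ⟨x, subset_normalClosure rfl⟩
  have k2 := congrArg (fun f : AddMonoid.End (Additive A) => ((f X).toMul : G)) key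
  simp only [sub_app] at k2
  have e : ((ρ y - 1) * (ρ z - 1) + (ρ y - 1) * (ρ z - 1)) X =
    (ρ y - 1) ((ρ z - 1) X) + (ρ y - 1) ((ρ z - 1) X) := rfl
  rw [e, toMul_add, Subgroup.coe_mul, sub_app, sub_app] at k2
  rw [pow_two]
  exact k2

open scoped commutatorElement in
theorem levi_pow_nine (h : ∀ a b : G, Commute a (b * a * b⁻¹)) (x y z : G) :
    ⁅⁅x, y⁆, z⁆ ^ 9 = 1 := by
  have e : ∀ x y z : G, ⁅⁅y, z⁆, x⁆ = (⁅⁅z, x⁆, y⁆ ^ 2)⁻¹ := by
    intro x y z
    rw [levi_sq h, ← commutatorElement_inv ⁅z, x⁆ y, inv_pow]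
  have h1 := e z x y
  have h2 := e x y z
  have h3 := e y z x
  rw [h3] at h2
  rw [h2] at h1
  generalize ⁅⁅x, y⁆, z⁆ = w at h1
  calc w ^ 9 = w * w ^ 8 := by group
    _ = 1 := by
      nth_rewrite 1 [h1]
      group

theorem mul_conj_mul_conj_eq_one {v y : G} (hy : y ^ 3 = 1) (hvy : (v * y) ^ 3 = 1) :
    v * (y * v * y⁻¹) * (y⁻¹ * v * y) = 1 := by
  have e : y⁻¹ = y * y := by
    rw [inv_eq_iff_mul_eq_one, ← hy]; simp only [pow_succ, pow_zero, one_mul, mul_assoc]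
  calc v * (y * v * y⁻¹) * (y⁻¹ * v * y) = v * y * v * (y⁻¹ * y⁻¹) * v * y := by group
    _ = v * y * v * y * v * y := by
      congr 2
      congr 1
      nth_rewrite 1 [e]
      group
    _ = (v * y) ^ 3 := by simp only [pow_succ, pow_zero, one_mul, mul_assoc]
    _ = 1 := hvy

theorem commute_conj_of_cube {v y : G} (hy : y ^ 3 = 1) (hvy : (v * y) ^ 3 = 1)
    (hvy' : (v⁻¹ * y) ^ 3 = 1) : Commute v (y * v * y⁻¹) := by
  have h1 := mul_conj_mul_conj_eq_one hy hvy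
  have h2 := mul_conj_mul_conj_eq_one hy hvy'
  have e1 : v * (y * v * y⁻¹) = (y⁻¹ * v * y)⁻¹ := eq_inv_of_mul_eq_one_left h1
  have e2 : v⁻¹ * (y * v⁻¹ * y⁻¹) = (y⁻¹ * v⁻¹ * y)⁻¹ := eq_inv_of_mul_eq_one_left h2
  change v * (y * v * y⁻¹) = (y * v * y⁻¹) * v
  rw [e1]
  calc (y⁻¹ * v * y)⁻¹ = ((y⁻¹ * v⁻¹ * y)⁻¹)⁻¹ := by group
    _ = _ := by rw [← e2]; group

/-- If every element of the coset `V x` has order dividing three, then `V` is a 2-Engel group. -/
theorem commute_conj_of_coset_cube {V : Subgroup G} {x : G} (hx : ∀ v ∈ V, x * v * x⁻¹ ∈ V)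
    (h : ∀ v ∈ V, (v * x) ^ 3 = 1) {a b : G} (ha : a ∈ V) (hb : b ∈ V) :
    Commute a (b * a * b⁻¹) := by
  have k : ∀ w ∈ V, Commute a ((w * x) * a * (w * x)⁻¹) := by
    intro w hw
    apply commute_conj_of_cube (h w hw)
    · rw [← mul_assoc]; exact h _ (V.mul_mem ha hw)
    · rw [← mul_assoc]; exact h _ (V.mul_mem (V.inv_mem ha) hw)
  have h1 := mul_conj_mul_conj_eq_one (by simpa using h 1 V.one_mem) (h a ha)
  have e : a = ((x * a * x⁻¹) * (x⁻¹ * a * x))⁻¹ := by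
    rw [mul_assoc] at h1; exact eq_inv_of_mul_eq_one_left h1
  have e2 : b * a * b⁻¹ = (((b * x) * a * (b * x)⁻¹) *
      ((x * b⁻¹ * x⁻¹ * x)⁻¹ * a * (x * b⁻¹ * x⁻¹ * x)))⁻¹ := by
    nth_rewrite 1 [e]; group
  rw [e2]
  refine ((k b hb).mul_right ?_).inv_right
  have := k _ (hx _ (V.inv_mem hb))
  generalize x * b⁻¹ * x⁻¹ * x = y at this
  have h3 : Commute (y⁻¹ * a * y) (y⁻¹ * (y * a * y⁻¹) * y) := by
    have := this.map (MulAut.conj y⁻¹)
    simpa using this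
  have e3 : y⁻¹ * (y * a * y⁻¹) * y = a := by group
  rw [e3] at h3
  exact h3.symm

end Cfsg.Agent.H4
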