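import Cfsg.Agent.H4.Levi

/-! A normal subgroup of exponent four under an action of the symmetric group of degree three. -/

set_option autoImplicit false

namespace Cfsg.Agent.H4

open Subgroup
open scoped commutatorElement

variable {G : Type*} [Group G]

theorem commutator_commute_of_coset_cube {V : Subgroup G} {x : G}
    (hx : ∀ v ∈ V, x * v * x⁻¹ ∈ V) (h : ∀ v ∈ V, (v * x) ^ 3 = 1) (h4 : ∀ v ∈ V, v ^ 4 = 1)
    {a b c : G} (ha : a ∈ V) (hb : b ∈ V) (hc : c ∈ V) : Commute ⁅a, b⁆ c := by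
  have h9 := levi_pow_nine (G := V) (fun a b => Subtype.ext
    (commute_conj_of_coset_cube hx h a.2 b.2)) ⟨a, ha⟩ ⟨b, hb⟩ ⟨c, hc⟩
  have h4' := h4 _ (⁅⁅(⟨a, ha⟩ : V), (⟨b, hb⟩ : V)⁆, (⟨c, hc⟩ : V)⁆).2
  have h9' := congrArg Subtype.val h9
  rw [← commutatorElement_eq_one_iff_commute]
  change ⁅⁅a, b⁆, c⁆ ^ 4 = 1 at h4'
  change ⁅⁅a, b⁆, c⁆ ^ 9 = 1 at h9'
  calc ⁅⁅a, b⁆, c⁆ = ⁅⁅a, b⁆, c⁆ ^ 9 * ((⁅⁅a, b⁆, c⁆ ^ 4) ^ 2)⁻¹ := by group
    _ = 1 := by rw [h4', h9']; simp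

theorem comm_mul_left_of_commute {a b c : G} (h : Commute a ⁅b, c⁆) :
    ⁅a * b, c⁆ = ⁅b, c⁆ * ⁅a, c⁆ := by
  calc ⁅a * b, c⁆ = a * ⁅b, c⁆ * a⁻¹ * ⁅a, c⁆ := by simp only [commutatorElement_def]; group
    _ = _ := by rw [h.eq]; group

theorem comm_mul_right_of_commute {a b c : G} (h : Commute b ⁅a, c⁆) :
    ⁅a, b * c⁆ = ⁅a, b⁆ * ⁅a, c⁆ := by
  calc ⁅a, b * c⁆ = ⁅a, b⁆ * (b * ⁅a, c⁆ * b⁻¹) := by simp only [commutatorElement_def]; group
    _ = _ := by rw [h.eq]; group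

theorem cube_eq_prod {w x s : G} (hx : x ^ 3 = 1) (hwx : (w * x) ^ 3 = 1)
    (hsx : s * x * s⁻¹ = x⁻¹) (hc : ∀ g : G, Commute w (g * w * g⁻¹)) :
    w ^ 3 = (w * (s * w * s⁻¹)) * (x * ((x⁻¹ * w * x) * (s * (x⁻¹ * w * x) * s⁻¹)) * x⁻¹) *
      (x⁻¹ * ((x * w * x⁻¹) * (s * (x * w * x⁻¹) * s⁻¹)) * x) := by
  have h1 := mul_conj_mul_conj_eq_one hx hwx
  have e0 : x⁻¹ = x * x := by
    rw [inv_eq_iff_mul_eq_one, ← hx]; simp only [pow_succ, pow_zero, one_mul, mul_assoc]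
  have e1 : x * s * x⁻¹ = s * x := by
    have : x * s = s * x⁻¹ := by
      calc x * s = (x⁻¹)⁻¹ * s := by group
        _ = (s * x * s⁻¹)⁻¹ * s := by rw [hsx]
        _ = _ := by group
    rw [this, mul_assoc, ← mul_inv_rev, ← e0, inv_inv]
  have e2 : x⁻¹ * s * x = s * x⁻¹ := by
    rw [← hsx]
    calc s * x * s⁻¹ * s * x = s * (x * x) := by group
      _ = _ := by rw [← e0, hsx]
  calc w ^ 3 = w ^ 3 * (s * (w * (x * w * x⁻¹) * (x⁻¹ * w * x)) * s⁻¹) := by rw [h1]; group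
    _ = w * (w * w * (s * w * s⁻¹)) * ((s * x) * w * (s * x)⁻¹) *
        ((s * x⁻¹) * w * (s * x⁻¹)⁻¹) := by simp only [pow_succ, pow_zero]; group
    _ = w * (s * w * s⁻¹) * w * (w * ((s * x) * w * (s * x)⁻¹)) *
        ((s * x⁻¹) * w * (s * x⁻¹)⁻¹) := by
      rw [((hc s).mul_left (hc s)).eq]; group
    _ = w * (s * w * s⁻¹) * w * ((s * x) * w * (s * x)⁻¹) * w *
        ((s * x⁻¹) * w * (s * x⁻¹)⁻¹) := by
      rw [(hc (s * x)).eq]; group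
    _ = _ := by rw [← e1, ← e2]; group

theorem commute_of_sq {a b : G} (ha : a ^ 2 = 1) (hb : b ^ 2 = 1) (hab : (a * b) ^ 2 = 1) :
    Commute a b := by
  rw [pow_two, mul_eq_one_iff_eq_inv] at ha hb hab
  change a * b = b * a
  rw [hab, mul_inv_rev, ← ha, ← hb]

theorem sq_eq_one_of_symm_three {V : Subgroup G} [hV : V.Normal] {x s : G}
    (h : ∀ v ∈ V, (v * x) ^ 3 = 1) (h4 : ∀ v ∈ V, v ^ 4 = 1) (hs : s ^ 2 = 1)
    (hsx : s * x * s⁻¹ = x⁻¹) (hs4 : ∀ v ∈ V, (v * s) ^ 4 = 1) :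
    IsMulCommutative V ∧ ∀ v ∈ V, v ^ 2 = 1 := by
  have hx : x ^ 3 = 1 := by simpa using h 1 V.one_mem
  have hcc : ∀ {a b c : G}, a ∈ V → b ∈ V → c ∈ V → Commute ⁅a, b⁆ c :=
    fun ha hb hc => commutator_commute_of_coset_cube (fun v hv => hV.conj_mem v hv x) h h4 ha hb hc
  have hs' : s⁻¹ = s := by rw [inv_eq_iff_mul_eq_one, ← pow_two, hs]
  let T : G → G := fun v => v * (s * v * s⁻¹)
  have TV : ∀ v ∈ V, T v ∈ V := fun v hv => V.mul_mem hv (hV.conj_mem v hv s)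
  have Tsq : ∀ v ∈ V, T v ^ 2 = 1 := by
    intro v hv
    rw [← hs4 v hv]
    change (v * (s * v * s⁻¹)) ^ 2 = _
    rw [hs']
    simp only [pow_succ, pow_zero, one_mul, mul_assoc]
  let Z : Subgroup G := V ⊓ centralizer (V : Set G)
  have hZ : ∀ {z : G}, z ∈ Z ↔ z ∈ V ∧ ∀ v ∈ V, Commute z v := by
    intro z
    simp only [Z, Subgroup.mem_inf, mem_centralizer_iff]
    exact and_congr_right fun _ => ⟨fun h v hv => (h v hv).symm, fun h v hv => (h v hv).symm⟩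
  have inv3 : ∀ v ∈ V, v = (v ^ 3)⁻¹ := fun v hv => by
    rw [eq_inv_iff_mul_eq_one, ← pow_succ', h4 v hv]
  have Zsq : ∀ z ∈ Z, z ^ 2 = 1 := by
    intro z hz
    have hz' := hZ.1 hz
    have e := cube_eq_prod hx (h z hz'.1) hsx (fun g => hz'.2 _ (hV.conj_mem z hz'.1 g))
    have TZ : ∀ v ∈ Z, T v ∈ Z := fun v hv => Z.mul_mem hv (Normal.conj_mem inferInstance v hv s)
    have m1 : T z ∈ Z := TZ z hz
    have m2' : T (x⁻¹ * z * x) ∈ Z := TZ _ (Normal.conj_mem' inferInstance z hz x)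
    have m3' : T (x * z * x⁻¹) ∈ Z := TZ _ (Normal.conj_mem inferInstance z hz x)
    have m2 : x * T (x⁻¹ * z * x) * x⁻¹ ∈ Z := Normal.conj_mem inferInstance _ m2' x
    have m3 : x⁻¹ * T (x * z * x⁻¹) * x ∈ Z := Normal.conj_mem' inferInstance _ m3' x
    change z ^ 3 = T z * (x * T (x⁻¹ * z * x) * x⁻¹) * (x⁻¹ * T (x * z * x⁻¹) * x) at e
    have : (z ^ 3) ^ 2 = 1 := by
      rw [e, ((hZ.1 m3).2 _ (V.mul_mem m1.1 m2.1)).symm.mul_pow, ((hZ.1 m1).2 _ m2.1).mul_pow,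
        Tsq z hz'.1, conj_pow, Tsq _ (hV.conj_mem' z hz'.1 x)]
      have : x⁻¹ * T (x * z * x⁻¹) * x = x⁻¹ * T (x * z * x⁻¹) * x⁻¹⁻¹ := by rw [inv_inv]
      rw [this, conj_pow, Tsq _ (hV.conj_mem z hz'.1 x)]
      simp
    rw [inv3 z hz'.1, inv_pow, this, inv_one]
  have cZ : ∀ {a b : G}, a ∈ V → b ∈ V → ⁅a, b⁆ ∈ Z := fun {a b} ha hb =>
    hZ.2 ⟨V.mul_mem (hV.conj_mem b hb a) (V.inv_mem hb), fun c hc => hcc ha hb hc⟩
  -- every element of `V` is a product of three conjugates of values of `T`, modulo `Z`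
  have dec : ∀ v ∈ V, ∃ z ∈ Z, v ^ 3 = T v * (x * T (x⁻¹ * v * x) * x⁻¹) *
      (x⁻¹ * T (x * v * x⁻¹) * x) * z := by
    intro v hv
    have e := cube_eq_prod (G := G ⧸ Z) (w := v) (x := x) (s := s)
      (by rw [← QuotientGroup.mk_pow, hx]; rfl)
      (by rw [← QuotientGroup.mk_mul, ← QuotientGroup.mk_pow, h v hv]; rfl)
      (by rw [← QuotientGroup.mk_inv, ← QuotientGroup.mk_inv, ← hsx]; rfl)
      (by
        intro g
        obtain ⟨g, rfl⟩ := QuotientGroup.mk_surjective g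
        rw [← commutatorElement_eq_one_iff_commute]
        exact (QuotientGroup.eq_one_iff _).2 (cZ hv (hV.conj_mem v hv g)))
    refine ⟨_, QuotientGroup.eq.1 (e.symm : ((T v * (x * T (x⁻¹ * v * x) * x⁻¹) *
      (x⁻¹ * T (x * v * x⁻¹) * x) : G) : G ⧸ Z) = ((v ^ 3 : G) : G ⧸ Z)),
      (mul_inv_cancel_left _ _).symm⟩
  have c1 : ∀ v ∈ V, ∀ w ∈ V, Commute (T v) (T w) := by
    intro v hv w hw
    apply commute_of_sq (Tsq v hv) (Tsq w hw)
    have hz := cZ hw (hV.conj_mem v hv s)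
    have e : T (v * w) = ⁅w, s * v * s⁻¹⁆ * (T v * T w) := by
      calc T (v * w) = v * ⁅w, s * v * s⁻¹⁆ * ((s * v * s⁻¹) * T w) := by
            simp only [T, commutatorElement_def]; group
        _ = _ := by rw [← ((hZ.1 hz).2 v hv).eq]; simp only [T]; group
    have := Tsq _ (V.mul_mem hv hw)
    rwa [e, ((hZ.1 hz).2 _ (V.mul_mem (TV v hv) (TV w hw))).mul_pow, Zsq _ hz, one_mul] at this
  have c2 : ∀ a ∈ V, ∀ b ∈ V, Commute a b → Commute a (x * b * x⁻¹) := by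
    intro a ha b hb hab
    have ha1 := hV.conj_mem a ha x
    have hb1 := hV.conj_mem b hb x
    have ea : x⁻¹ * a * x = (a * (x * a * x⁻¹))⁻¹ :=
      eq_inv_of_mul_eq_one_right (mul_conj_mul_conj_eq_one hx (h a ha))
    have eb : x⁻¹ * b * x = (b * (x * b * x⁻¹))⁻¹ :=
      eq_inv_of_mul_eq_one_right (mul_conj_mul_conj_eq_one hx (h b hb))
    have hab1 : Commute (x * a * x⁻¹) (x * b * x⁻¹) := by
      simpa using hab.map (MulAut.conj x)
    have hab2 : Commute (x⁻¹ * a * x) (x⁻¹ * b * x) := by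
      simpa using hab.map (MulAut.conj x⁻¹)
    rw [ea, eb, Commute.inv_inv_iff, ← commutatorElement_eq_one_iff_commute,
      comm_mul_left_of_commute (hcc ha1 (V.mul_mem hb hb1) ha).symm,
      comm_mul_right_of_commute (hcc ha1 hb1 hb).symm,
      comm_mul_right_of_commute (hcc ha hb1 hb).symm, hab.commutator_eq, hab1.commutator_eq,
      mul_one, one_mul] at hab2
    have e0 : x = x⁻¹ * x⁻¹ := by
      rw [← mul_inv_rev, eq_inv_iff_mul_eq_one, ← hx]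
      simp only [pow_succ, pow_zero, one_mul, mul_assoc]
    have f1 : x * ⁅a, x * b * x⁻¹⁆ * x⁻¹ = ⁅a, x * b * x⁻¹⁆ := by
      have g1 : x * ⁅a, x * b * x⁻¹⁆ * x⁻¹ = ⁅x * a * x⁻¹, x⁻¹ * b * x⁆ := by
        have : x⁻¹ * b * x = x * (x * b * x⁻¹) * x⁻¹ := by
          have e1 : x⁻¹ = x * x := by
            rw [inv_eq_iff_mul_eq_one, ← hx]; simp only [pow_succ, pow_zero, one_mul, mul_assoc]
          calc x⁻¹ * b * x = (x * x) * b * (x⁻¹ * x⁻¹) := by rw [← e0, ← e1]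
            _ = _ := by group
        rw [this, conjugate_commutatorElement]
      have g2 : ⁅x * a * x⁻¹, (b * (x * b * x⁻¹))⁻¹ * (b * (x * b * x⁻¹))⁆ = 1 := by
        rw [inv_mul_cancel, commutatorElement_one_right]
      rw [comm_mul_right_of_commute (hcc ha1 (V.mul_mem hb hb1)
        (V.inv_mem (V.mul_mem hb hb1))).symm, comm_mul_right_of_commute (hcc ha1 hb1 hb).symm,
        hab1.commutator_eq, mul_one] at g2
      rw [g1, eb, eq_inv_of_mul_eq_one_left g2, eq_inv_of_mul_eq_one_right hab2]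
    have hz := cZ ha hb1
    have f2 := mul_conj_mul_conj_eq_one hx (h _ hz.1)
    have f3 : x⁻¹ * ⁅a, x * b * x⁻¹⁆ * x = ⁅a, x * b * x⁻¹⁆ := by
      nth_rewrite 1 [← f1]; group
    rw [f1, f3, ← pow_two, Zsq _ hz, one_mul] at f2
    exact commutatorElement_eq_one_iff_commute.1 f2
  have c3 : ∀ a ∈ V, ∀ b ∈ V, Commute a b → Commute a (x⁻¹ * b * x) := by
    intro a ha b hb hab
    rw [eq_inv_of_mul_eq_one_right (mul_conj_mul_conj_eq_one hx (h b hb))]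
    exact (hab.mul_right (c2 a ha b hb hab)).inv_right
  have TZ : ∀ v ∈ V, T v ∈ Z := by
    intro v hv
    refine hZ.2 ⟨TV v hv, fun w hw => ?_⟩
    obtain ⟨z, hz, e⟩ := dec w hw
    have m2 := hV.conj_mem' w hw x
    have m3 := hV.conj_mem w hw x
    rw [inv3 w hw, e]
    exact ((((c1 v hv w hw).mul_right (c2 _ (TV v hv) _ (TV _ m2) (c1 v hv _ m2))).mul_right
      (c3 _ (TV v hv) _ (TV _ m3) (c1 v hv _ m3))).mul_right
      ((hZ.1 hz).2 _ (TV v hv)).symm).inv_right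
  have VZ : ∀ v ∈ V, v ∈ Z := by
    intro v hv
    obtain ⟨z, hz, e⟩ := dec v hv
    rw [inv3 v hv, e]
    exact Z.inv_mem (Z.mul_mem (Z.mul_mem (Z.mul_mem (TZ v hv)
      (Normal.conj_mem inferInstance _ (TZ _ (hV.conj_mem' v hv x)) x))
      (Normal.conj_mem' inferInstance _ (TZ _ (hV.conj_mem v hv x)) x)) hz)
  exact ⟨⟨⟨fun a b => Subtype.ext ((hZ.1 (VZ a a.2)).2 b b.2)⟩⟩, fun v hv => Zsq v (VZ v hv)⟩

end Cfsg.Agent.H4
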