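import Cfsg.Agent.H4.Levi2
import Cfsg.Agent.H4.Higman
import Cfsg.Agent.H6.Burnside
import Cfsg.Agent.H3.RankOne
import Cfsg.Agent.H3.DQ

/-! Finite groups all of whose elements have order at most four. -/

set_option autoImplicit false

namespace Cfsg.Agent.H4

open Cfsg Subgroup

/-- Every element has order 1, 2, 3 or 4. -/
def Ord4 (G : Type*) [Group G] : Prop := ∀ g : G, g ^ 3 = 1 ∨ g ^ 4 = 1

variable {G : Type*} [Group G]

theorem Ord4.quotient (h : Ord4 G) (N : Subgroup G) [N.Normal] : Ord4 (G ⧸ N) := by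
  intro q
  obtain ⟨g, rfl⟩ := QuotientGroup.mk_surjective q
  rcases h g with h | h
  · left; rw [← QuotientGroup.mk_pow, h]; rfl
  · right; rw [← QuotientGroup.mk_pow, h]; rfl

theorem Ord4.prime_dvd [Finite G] (h : Ord4 G) {r : ℕ} (hr : r.Prime) (hd : r ∣ Nat.card G) :
    r = 2 ∨ r = 3 := by
  have := Fact.mk hr
  obtain ⟨g, hg⟩ := exists_prime_orderOf_dvd_card' r hd
  rcases h g with h | h
  · right
    exact (Nat.prime_dvd_prime_iff_eq hr Nat.prime_three).1 (hg ▸ orderOf_dvd_of_pow_eq_one h)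
  · left
    have : r ∣ 2 ^ 2 := hg ▸ orderOf_dvd_of_pow_eq_one h
    exact (Nat.prime_dvd_prime_iff_eq hr Nat.prime_two).1 (hr.dvd_of_dvd_pow this)

theorem Ord4.isSolvable [Finite G] (h : Ord4 G) : Group.IsSolvable G :=
  H6.isSolvable_of_primes_two 2 3 fun _ hr hd => h.prime_dvd hr hd

theorem Ord4.orderOf_ne_six (h : Ord4 G) (g : G) : orderOf g ≠ 6 := by
  intro e
  rcases h g with h | h
  · have := orderOf_dvd_of_pow_eq_one h; rw [e] at this; omega
  · have := orderOf_dvd_of_pow_eq_one h; rw [e] at this; omega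

theorem Ord4.false_of_commute (h : Ord4 G) {a b : G} (ha : a ^ 4 = 1) (hb : b ^ 3 = 1)
    (ha1 : a ≠ 1) (hb1 : b ≠ 1) (hc : Commute a b) : False := by
  rcases h (a * b) with h | h
  · rw [hc.mul_pow, hb, mul_one] at h
    apply ha1
    calc a = a ^ 4 * (a ^ 3)⁻¹ := by group
      _ = 1 := by rw [ha, h]; simp
  · rw [hc.mul_pow, ha, one_mul] at h
    apply hb1
    calc b = b ^ 4 * (b ^ 3)⁻¹ := by group
      _ = 1 := by rw [hb, h]; simp

theorem eq_one_of_mem_isPGroup_of_coprime {p n : ℕ} {N : Subgroup G} (hN : IsPGroup p N) {x : G}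
    (hx : x ∈ N) (hn : x ^ n = 1) (hc : p.Coprime n) : x = 1 := by
  obtain ⟨k, hk⟩ := hN ⟨x, hx⟩
  have hk' : x ^ p ^ k = 1 := congrArg Subtype.val hk
  rw [← orderOf_eq_one_iff]
  exact Nat.eq_one_of_dvd_coprimes (hc.pow_left k) (orderOf_dvd_of_pow_eq_one hk')
    (orderOf_dvd_of_pow_eq_one hn)

theorem Ord4.cube_of_mem (h : Ord4 G) {N : Subgroup G} (hN : IsPGroup 3 N) {x : G} (hx : x ∈ N) :
    x ^ 3 = 1 := by
  rcases h x with h | h
  · exact h
  · rw [eq_one_of_mem_isPGroup_of_coprime hN hx h (by norm_num), one_pow]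

theorem Ord4.four_of_mem (h : Ord4 G) {N : Subgroup G} (hN : IsPGroup 2 N) {x : G} (hx : x ∈ N) :
    x ^ 4 = 1 := by
  rcases h x with h | h
  · rw [eq_one_of_mem_isPGroup_of_coprime hN hx h (by norm_num), one_pow]
  · exact h

theorem Ord4.fitting_cases [Finite G] (h : Ord4 G) :
    IsPGroup 2 (fittingSubgroup G) ∨ IsPGroup 3 (fittingSubgroup G) := by
  by_contra hc
  push Not at hc
  rw [← L.isPiSubgroup_singleton_iff Nat.prime_two,
    ← L.isPiSubgroup_singleton_iff Nat.prime_three] at hc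
  obtain ⟨h2, h3⟩ := hc
  simp only [IsPiSubgroup, Set.mem_singleton_iff] at h2 h3
  push Not at h2 h3
  obtain ⟨p, hp, hpd, hp2⟩ := h2
  obtain ⟨q, hq, hqd, hq3⟩ := h3
  have hp3 := (h.prime_dvd hp (hpd.trans (card_subgroup_dvd_card _))).resolve_left hp2
  have hq2 := (h.prime_dvd hq (hqd.trans (card_subgroup_dvd_card _))).resolve_right hq3
  subst hp3 hq2
  obtain ⟨g, hg⟩ := H9.exists_orderOf_eq_mul_of_isNilpotent inferInstance hq hp (by norm_num) hqd hpd
  exact h.orderOf_ne_six g hg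

theorem Ord4.inv_of_involution [Finite G] (h : Ord4 G) {F : Subgroup G} [F.Normal]
    (hF : IsPGroup 3 F) {t : G} (ht : orderOf t = 2) {n : G} (hn : n ∈ F) :
    t * n * t⁻¹ = n⁻¹ := by
  have ht2 : t ^ 2 = 1 := ht ▸ pow_orderOf_eq_one t
  have ht1 : t ≠ 1 := by rintro rfl; simp at ht
  obtain ⟨m, -, hm⟩ := H9.exists_conj_eq_mul_of_fpf (N := F) (x := t)
    (by rw [normalizer_eq_top]; trivial) (fun k hk hc => by
      by_contra hk1
      exact h.false_of_commute (a := t) (by rw [show 4 = 2 * 2 from rfl, pow_mul, ht2, one_pow])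
        (h.cube_of_mem hF hk) ht1 hk1 hc) hn
  have : (n * t) ^ 2 = 1 := by rw [← hm, conj_pow, ht2]; simp
  have e : t⁻¹ = t := by rw [inv_eq_iff_mul_eq_one, ← pow_two, ht2]
  rw [e, eq_inv_iff_mul_eq_one]
  calc t * n * t * n = n⁻¹ * (n * t) ^ 2 * n := by rw [pow_two]; group
    _ = 1 := by rw [this]; simp

/-- The case of a self-centralizing normal 3-subgroup. -/
theorem Ord4.three_case [Finite G] (h : Ord4 G) {F : Subgroup G} [F.Normal] (hF : IsPGroup 3 F)
    (hC : centralizer (F : Set G) ≤ F) {t : G} (ht : orderOf t = 2) :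
    IsElementaryAbelian 3 F ∧ (∀ q : G ⧸ F, q ^ 4 = 1) ∧ Nontrivial (G ⧸ F) ∧
      (IsCyclic (G ⧸ F) ∨ Nonempty (G ⧸ F ≃* QuaternionGroup 2)) := by
  have ht2 : t ^ 2 = 1 := ht ▸ pow_orderOf_eq_one t
  have ht1 : t ≠ 1 := by rintro rfl; simp at ht
  have htF : t ∉ F := fun hm => ht1 (eq_one_of_mem_isPGroup_of_coprime hF hm ht2 (by norm_num))
  have hq1 : (t : G ⧸ F) ≠ 1 := fun e => htF ((QuotientGroup.eq_one_iff _).1 e)
  have huniq : ∀ s : G, orderOf s = 2 → (s : G ⧸ F) = t := by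
    intro s hs
    rw [QuotientGroup.eq]
    apply hC
    rw [mem_centralizer_iff]
    intro n hn
    have h1 := h.inv_of_involution hF ht hn
    have h2 := h.inv_of_involution hF hs hn
    calc n * (s⁻¹ * t) = s⁻¹ * (s * n * s⁻¹) * t := by group
      _ = s⁻¹ * (t * n * t⁻¹) * t := by rw [h1, h2]
      _ = _ := by group
  have hcen : ∀ q : G ⧸ F, Commute (t : G ⧸ F) q := by
    intro q
    obtain ⟨g, rfl⟩ := QuotientGroup.mk_surjective q
    have := huniq (g * t * g⁻¹) (by rw [← ht]; exact (MulAut.conj g).orderOf_eq t)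
    rw [QuotientGroup.mk_mul, QuotientGroup.mk_mul, QuotientGroup.mk_inv,
      mul_inv_eq_iff_eq_mul] at this
    exact this.symm
  have h4 : ∀ q : G ⧸ F, q ^ 4 = 1 := by
    intro q
    rcases h.quotient F q with h3 | h3
    · by_cases hq : q = 1
      · rw [hq, one_pow]
      · exact ((h.quotient F).false_of_commute (a := (t : G ⧸ F))
          (by rw [← QuotientGroup.mk_pow, show 4 = 2 * 2 from rfl, pow_mul, ht2, one_pow]; rfl)
          h3 hq1 hq (hcen q)).elim
    · exact h3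
  have hu : ∀ q : G ⧸ F, orderOf q = 2 → q = t := by
    intro q hq
    obtain ⟨g, rfl⟩ := QuotientGroup.mk_surjective q
    have hq2 : (g : G ⧸ F) ^ 2 = 1 := hq ▸ pow_orderOf_eq_one _
    have hg1 : (g : G ⧸ F) ≠ 1 := by intro e; rw [e] at hq; simp at hq
    apply huniq
    have := Fact.mk Nat.prime_two
    apply orderOf_eq_prime
    · rcases h g with h3 | h3
      · exfalso
        apply hg1
        calc (g : G ⧸ F) = (g : G ⧸ F) ^ 3 * ((g : G ⧸ F) ^ 2)⁻¹ := by group
          _ = 1 := by rw [hq2, ← QuotientGroup.mk_pow, h3]; simp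
      · exact eq_one_of_mem_isPGroup_of_coprime (n := 2) hF ((QuotientGroup.eq_one_iff _).1 hq2)
          (by rw [← pow_mul]; exact h3) (by norm_num)
    · rintro rfl; exact hg1 rfl
  refine ⟨⟨⟨⟨fun a b => Subtype.ext ?_⟩⟩, fun a ha => h.cube_of_mem hF ha⟩, h4, ⟨_, _, hq1⟩, ?_⟩
  · have h1 := h.inv_of_involution hF ht (a * b).2
    have h2 := h.inv_of_involution hF ht a.2
    have h3 := h.inv_of_involution hF ht b.2
    apply inv_injective
    rw [← h1]
    simp only [Subgroup.coe_mul, mul_inv_rev]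
    rw [← h2, ← h3]; group
  · have hp : IsPGroup 2 (G ⧸ F) := fun q => ⟨2, h4 q⟩
    rcases H3.isCyclic_or_quaternion_of_unique_involution hp
      (fun x y hx hy => (hu x hx).trans (hu y hy).symm) with hc | ⟨k, hk, ⟨e⟩⟩
    · exact Or.inl hc
    · right
      obtain ⟨x, y, hx, -⟩ := H3.exists_gens_of_mulEquiv_quaternion e
      have : 2 * 2 ^ k ∣ 4 := hx ▸ orderOf_dvd_of_pow_eq_one (h4 x)
      have h5 : 2 * 2 ^ k ≤ 4 := Nat.le_of_dvd (by norm_num) this
      have h6 : k < 2 := by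
        by_contra h7
        have : 2 ^ 2 ≤ 2 ^ k := Nat.pow_le_pow_right (by norm_num) (by omega)
        omega
      obtain rfl : k = 1 := by omega
      exact ⟨e⟩

theorem nonempty_mulEquiv_perm_three [Finite G] {x y : G} (hx : orderOf x = 3)
    (hidx : (zpowers x).index = 2) (hy : y ∉ zpowers x) (hy2 : y ^ 2 = 1)
    (h : y * x * y⁻¹ = x⁻¹) : Nonempty (G ≃* Equiv.Perm (Fin 3)) := by
  obtain ⟨e⟩ := H3.nonempty_mulEquiv_dihedral hx hidx hy hy2 h
  have := Fact.mk Nat.prime_three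
  have hx' : orderOf (finRotate 3) = 3 := orderOf_eq_prime (by decide) (by decide)
  obtain ⟨e'⟩ := H3.nonempty_mulEquiv_dihedral (G := Equiv.Perm (Fin 3)) (x := finRotate 3)
    (y := Equiv.swap 0 1) hx' (H3.index_zpowers_eq_of_card (by rw [hx']; simp; rfl))
    (by
      intro hm
      have h1 := orderOf_dvd_of_mem_zpowers hm
      rw [hx'] at h1
      have := orderOf_dvd_iff_pow_eq_one.1 h1
      revert this; decide) (by decide) (by decide)
  exact ⟨e.trans e'.symm⟩

/-- The case of a nontrivial normal 2-subgroup. -/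
theorem Ord4.two_case [Finite G] (h : Ord4 G) (hF : IsPGroup 2 (fittingSubgroup G)) {x : G}
    (hx : orderOf x = 3) :
    (∀ v ∈ fittingSubgroup G, (v * x) ^ 3 = 1) ∧ ((fittingSubgroup G).index = 3 ∨
      ((∃ s : G, s ∉ fittingSubgroup G ∧ s ^ 2 = 1 ∧ s * x * s⁻¹ = x⁻¹) ∧
        Nonempty (G ⧸ fittingSubgroup G ≃* Equiv.Perm (Fin 3)))) := by
  classical
  have := h.isSolvable
  have f3 := Fact.mk Nat.prime_three
  have f2 := Fact.mk Nat.prime_two
  have hx3 : x ^ 3 = 1 := hx ▸ pow_orderOf_eq_one x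
  have hx1 : x ≠ 1 := by rintro rfl; simp at hx
  have : Nontrivial G := ⟨_, _, hx1⟩
  set V := fittingSubgroup G with hV
  have hV1 : V ≠ ⊥ := L.fittingSubgroup_ne_bot
  have fpf : ∀ y : G, y ^ 3 = 1 → y ≠ 1 → ∀ k ∈ V, y * k = k * y → k = 1 := by
    intro y hy hy1 k hk hc
    by_contra hk1
    exact h.false_of_commute (h.four_of_mem hF hk) hy hk1 hy1 hc.symm
  have hn : ∀ y : G, y ∈ normalizer (V : Set G) := fun y => by rw [normalizer_eq_top]; trivial
  have hcos : ∀ v ∈ V, (v * x) ^ 3 = 1 := by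
    intro v hv
    obtain ⟨m, -, hm⟩ := H9.exists_conj_eq_mul_of_fpf (hn x) (fpf x hx3 hx1) hv
    rw [← hm, conj_pow, hx3]; simp
  refine ⟨hcos, ?_⟩
  have hxV : x ∉ V := fun hm => hx1 (eq_one_of_mem_isPGroup_of_coprime hF hm hx3 (by norm_num))
  have hxq1 : (x : G ⧸ V) ≠ 1 := fun e => hxV ((QuotientGroup.eq_one_iff _).1 e)
  have hxq : orderOf (x : G ⧸ V) = 3 :=
    orderOf_eq_prime (by rw [← QuotientGroup.mk_pow, hx3]; rfl) hxq1
  -- nine does not divide the order
  have h9 : ¬ 3 ^ 2 ∣ Nat.card G := by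
    intro h9
    obtain ⟨P, hP⟩ := Sylow.exists_subgroup_card_pow_prime 3 h9
    have hPp : IsPGroup 3 P := IsPGroup.of_card hP
    have : Nontrivial V := (Subgroup.nontrivial_iff_ne_bot V).2 hV1
    have hφ := H9.isFrobAction_conjAction (B := P) (K := V) (fun y _ => hn y)
      (fun b hb hb1 => fpf b (h.cube_of_mem hPp hb) hb1)
    rcases hφ.pgroup_cases hPp with hc | ⟨h23, -⟩
    · obtain ⟨g, hg⟩ := IsCyclic.exists_ofOrder_eq_natCard (α := P)
      have : orderOf g ∣ 3 := orderOf_dvd_of_pow_eq_one (Subtype.ext (h.cube_of_mem hPp g.2))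
      rw [hg, hP] at this
      norm_num at this
    · norm_num at h23
  have hQ := h.quotient V
  have : Nontrivial (G ⧸ V) := ⟨_, _, hxq1⟩
  have hF1 : fittingSubgroup (G ⧸ V) ≠ ⊥ := L.fittingSubgroup_ne_bot
  have hF3 : IsPGroup 3 (fittingSubgroup (G ⧸ V)) := by
    refine hQ.fitting_cases.resolve_left fun h2 => hF1 ?_
    apply L.eq_bot_of_comap_mk'_eq
    have : IsPGroup 2 ((fittingSubgroup (G ⧸ V)).comap (QuotientGroup.mk' V)) :=
      h2.comap_of_ker_isPGroup _ (by rwa [QuotientGroup.ker_mk'])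
    exact L.le_fittingSubgroup inferInstance this.isNilpotent
  have h9Q : ¬ 3 ^ 2 ∣ Nat.card (G ⧸ V) := fun hd => h9 (hd.trans (card_quotient_dvd_card V))
  have card3 : ∀ {B : Subgroup (G ⧸ V)}, IsPGroup 3 B → B ≠ ⊥ → Nat.card B = 3 := by
    intro B hB hB1
    obtain ⟨k, hk⟩ := hB.exists_card_eq
    have k1 : k ≠ 0 := by rintro rfl; exact hB1 (Subgroup.card_eq_one.1 hk)
    have k2 : ¬ 2 ≤ k := fun h2 => h9Q ((pow_dvd_pow 3 h2).trans (hk ▸ card_subgroup_dvd_card B))
    obtain rfl : k = 1 := by omega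
    exact hk
  by_cases h2 : 2 ∣ Nat.card (G ⧸ V)
  · right
    obtain ⟨t, ht⟩ := exists_prime_orderOf_dvd_card' 2 h2
    have hzp : IsPGroup 3 (zpowers (x : G ⧸ V)) :=
      IsPGroup.of_card (n := 1) (by rw [Nat.card_zpowers, hxq]; rfl)
    have hFz : fittingSubgroup (G ⧸ V) = zpowers (x : G ⧸ V) := by
      have c1 := card3 (hzp.to_sup_of_normal_right hF3) (fun e => hF1 (le_bot_iff.1 (e ▸ le_sup_right)))
      have e1 := H1.eq_of_le_of_card_le (le_sup_right : fittingSubgroup (G ⧸ V) ≤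
        zpowers (x : G ⧸ V) ⊔ fittingSubgroup (G ⧸ V)) (by rw [c1, card3 hF3 hF1])
      have e2 := H1.eq_of_le_of_card_le (le_sup_left : zpowers (x : G ⧸ V) ≤
        zpowers (x : G ⧸ V) ⊔ fittingSubgroup (G ⧸ V)) (by rw [c1, Nat.card_zpowers, hxq])
      exact e1.trans e2.symm
    have hxF : (x : G ⧸ V) ∈ fittingSubgroup (G ⧸ V) := hFz ▸ mem_zpowers _
    have hinv := hQ.inv_of_involution hF3 ht hxF
    have ht2 : t ^ 2 = 1 := ht ▸ pow_orderOf_eq_one t
    have ht1 : t ≠ 1 := by rintro rfl; simp at ht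
    have htF : t ∉ fittingSubgroup (G ⧸ V) := fun hm =>
      ht1 (eq_one_of_mem_isPGroup_of_coprime hF3 hm ht2 (by norm_num))
    have hcen : ∀ g : G ⧸ V, g * x = x * g → g ∈ fittingSubgroup (G ⧸ V) := by
      intro g hg
      apply L.centralizer_fittingSubgroup_le
      rw [hFz, mem_centralizer_iff]
      rintro _ ⟨k, rfl⟩
      exact ((show Commute g x from hg).zpow_right k).symm
    have hidx : (fittingSubgroup (G ⧸ V)).index = 2 := by
      rw [Subgroup.index_eq_two_iff]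
      refine ⟨t, fun b => ?_⟩
      by_cases hb : b ∈ fittingSubgroup (G ⧸ V)
      · exact Or.inr ⟨hb, fun hm => htF ((Subgroup.mul_mem_cancel_left _ hb).1 hm)⟩
      · refine Or.inl ⟨hcen _ ?_, hb⟩
        have hm : b⁻¹ * x * b ∈ zpowers (x : G ⧸ V) :=
          hFz ▸ Normal.conj_mem' inferInstance _ hxF b
        rw [mem_zpowers_iff_mem_range_orderOf, hxq] at hm
        obtain ⟨i, hi, e⟩ := Finset.mem_image.1 hm
        have hi' := Finset.mem_range.1 hi
        interval_cases i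
        · exfalso
          apply hxq1
          calc (x : G ⧸ V) = b * (b⁻¹ * x * b) * b⁻¹ := by group
            _ = 1 := by rw [← e]; simp
        · exfalso
          apply hb
          apply hcen
          calc b * x = b * (b⁻¹ * x * b) := by rw [← e, pow_one]
            _ = _ := by group
        · have e1 : (x : G ⧸ V) ^ 2 = (x : G ⧸ V)⁻¹ := by
            rw [eq_inv_iff_mul_eq_one, ← pow_succ, ← QuotientGroup.mk_pow, hx3]; rfl
          calc b * t * x = b * (t * x * t⁻¹) * t := by group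
            _ = b * (b⁻¹ * x * b) * t := by rw [hinv, ← e, e1]
            _ = _ := by group
    refine ⟨?_, nonempty_mulEquiv_perm_three hxq (hFz ▸ hidx) (hFz ▸ htF) ht2 hinv⟩
    obtain ⟨s, rfl⟩ := QuotientGroup.mk_surjective t
    have hm : s * x * s⁻¹ * x ∈ V := by
      rw [← QuotientGroup.eq_one_iff]
      simp only [QuotientGroup.mk_mul, QuotientGroup.mk_inv]
      rw [hinv, inv_mul_cancel]
    obtain ⟨m, hmV, hm'⟩ := H9.exists_conj_eq_mul_of_fpf (hn x⁻¹)
      (fpf x⁻¹ (by rw [inv_pow, hx3, inv_one]) (inv_ne_one.2 hx1)) hm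
    have e : m⁻¹ * s * x * (m⁻¹ * s)⁻¹ = x⁻¹ := by
      calc m⁻¹ * s * x * (m⁻¹ * s)⁻¹ = m⁻¹ * (s * x * s⁻¹ * x * x⁻¹) * m := by group
        _ = x⁻¹ := by rw [← hm']; group
    have hq : ((m⁻¹ * s : G) : G ⧸ V) = s := by
      rw [QuotientGroup.mk_mul, (QuotientGroup.eq_one_iff _).2 (V.inv_mem hmV), one_mul]
    refine ⟨m⁻¹ * s, fun hm => ht1 (hq ▸ (QuotientGroup.eq_one_iff _).2 hm), ?_, e⟩
    apply fpf x hx3 hx1
    · rw [← QuotientGroup.eq_one_iff, QuotientGroup.mk_pow, hq, ht2]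
    · generalize m⁻¹ * s = u at e
      have e' : u * x⁻¹ * u⁻¹ = x := by
        calc u * x⁻¹ * u⁻¹ = (u * x * u⁻¹)⁻¹ := by group
          _ = x := by rw [e, inv_inv]
      calc x * u ^ 2 = u * x⁻¹ * u⁻¹ * u ^ 2 := by rw [e']
        _ = u * (u * x * u⁻¹) * u := by rw [e, pow_two]; group
        _ = _ := by rw [pow_two]; group
  · left
    have : IsPGroup 3 (⊤ : Subgroup (G ⧸ V)) := by
      rw [← L.isPiSubgroup_singleton_iff Nat.prime_three]
      intro r hr hd
      rw [Subgroup.card_top] at hd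
      exact (hQ.prime_dvd hr hd).resolve_left fun e => h2 (e ▸ hd)
    have := card3 this top_ne_bot
    rwa [Subgroup.card_top] at this

end Cfsg.Agent.H4
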